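/-
Reading the tables, and the Boolean checks run by the kernel.
-/
import Cfsg.Agent.Lib.P128.Tab

set_option autoImplicit false

namespace Cfsg.Agent.Lib.P128

/-- Table lookup: multiplication. -/
def mulN (i j : ℕ) : ℕ := Nat.mod (Nat.shiftRight MULT (Nat.add (Nat.mul 896 i) (Nat.mul 7 j))) 128

/-- Table lookup in 7-bit entries. -/
def get7 (f i : ℕ) : ℕ := Nat.mod (Nat.shiftRight f (Nat.mul 7 i)) 128

/-- Table lookup: inverse. -/
def invN (i : ℕ) : ℕ := get7 INVT i

/-- Conjugation. -/
def conjN (y h : ℕ) : ℕ := mulN (mulN y h) (invN y)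

/-- Table lookup: permutation. -/
def pg (i k : ℕ) : ℕ := Nat.mod (Nat.shiftRight PERMT (Nat.add (Nat.mul 24 i) (Nat.mul 3 k))) 8

/-- Table lookup: parent. -/
def parN (i : ℕ) : ℕ := get7 PART i

/-- Table lookup: generator label. -/
def genN (i : ℕ) : ℕ := Nat.mod (Nat.shiftRight GENT (Nat.mul 2 i)) 4

/-- Table lookup: `THETA`. -/
def thN (i : ℕ) : ℕ := get7 THETA i

/-- Testing a bit of a mask. -/
def tb (m i : ℕ) : Bool := Nat.beq (Nat.mod (Nat.shiftRight m i) 2) 1

/-- Bounded universal quantifier. -/
noncomputable def allB (n : ℕ) (f : ℕ → Bool) : Bool :=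
  Nat.rec true (fun k ih => and ih (f k)) n

/-- Bounded existential quantifier. -/
noncomputable def anyB (n : ℕ) (f : ℕ → Bool) : Bool :=
  Nat.rec false (fun k ih => or ih (f k)) n

theorem allB_succ (n : ℕ) (f : ℕ → Bool) : allB (n + 1) f = and (allB n f) (f n) := rfl

theorem anyB_succ (n : ℕ) (f : ℕ → Bool) : anyB (n + 1) f = or (anyB n f) (f n) := rfl

theorem allB_iff (n : ℕ) (f : ℕ → Bool) : allB n f = true ↔ ∀ i, i < n → f i = true := by
  induction n with
  | zero => simp [allB]
  | succ n ih =>
    rw [allB_succ]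
    simp only [Bool.and_eq_true, ih]
    constructor
    · rintro ⟨h1, h2⟩ i hi
      rcases Nat.lt_succ_iff_lt_or_eq.mp hi with h | rfl
      · exact h1 i h
      · exact h2
    · intro h
      exact ⟨fun i hi => h i (by omega), h n (by omega)⟩

theorem anyB_iff (n : ℕ) (f : ℕ → Bool) : anyB n f = true ↔ ∃ i, i < n ∧ f i = true := by
  induction n with
  | zero => simp [anyB]
  | succ n ih =>
    rw [anyB_succ]
    simp only [Bool.or_eq_true, ih]
    constructor
    · rintro (⟨i, hi, h⟩ | h)
      · exact ⟨i, by omega, h⟩
      · exact ⟨n, by omega, h⟩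
    · rintro ⟨i, hi, h⟩
      rcases Nat.lt_succ_iff_lt_or_eq.mp hi with h' | rfl
      · exact Or.inl ⟨i, h', h⟩
      · exact Or.inr h

/-- A code for the order of an element. -/
def oc (i : ℕ) : ℕ :=
  cond (Nat.beq i 0) 0 (cond (Nat.beq (mulN i i) 0) 1
    (cond (Nat.beq (mulN (mulN i i) (mulN i i)) 0) 2 3))

/-- Filter on the image of the first generator. -/
def ok1 (p : ℕ) : Bool := Nat.beq (oc p) (oc 1)

/-- Filter on the images of the first two generators. -/
def ok2 (p q : ℕ) : Bool := and (Nat.beq (oc q) (oc 2)) (Nat.beq (oc (mulN p q)) (oc (mulN 1 2)))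

/-- Filter on the images of the generators. -/
def ok3 (p q r : ℕ) : Bool :=
  and (Nat.beq (oc r) (oc 3)) (and (Nat.beq (oc (mulN p r)) (oc (mulN 1 3)))
    (and (Nat.beq (oc (mulN q r)) (oc (mulN 2 3)))
      (and (Nat.beq (oc (mulN (mulN p q) r)) (oc (mulN (mulN 1 2) 3)))
        (Nat.beq (oc (mulN (mulN p r) q)) (oc (mulN (mulN 1 3) 2))))))

/-- The images of the generators. -/
def imG (p q r k : ℕ) : ℕ := cond (Nat.beq k 0) p (cond (Nat.beq k 1) q r)

/-- The code of the map with the given images of the generators. -/
noncomputable def extF (p q r : ℕ) : ℕ :=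
  Nat.rec 0 (fun k acc => Nat.add acc (Nat.shiftLeft
    (mulN (get7 acc (parN (Nat.succ k))) (imG p q r (genN (Nat.succ k)))) (Nat.mul 7 (Nat.succ k)))) 127

/-- `f` follows the breadth-first tree. -/
noncomputable def recOK (f p q r : ℕ) : Bool :=
  and (Nat.beq (get7 f 0) 0) (allB 127 (fun k =>
    Nat.beq (get7 f (Nat.succ k)) (mulN (get7 f (parN (Nat.succ k))) (imG p q r (genN (Nat.succ k))))))

/-- `f` respects multiplication by the generators. -/
noncomputable def homOK (f : ℕ) : Bool :=
  allB 128 (fun i => allB 3 (fun k =>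
    Nat.beq (get7 f (mulN i (Nat.succ k))) (mulN (get7 f i) (get7 f (Nat.succ k)))))

/-- The square of `f` is the inner automorphism of `c`, and `f` fixes `c`. -/
noncomputable def sqOK (f c : ℕ) : Bool :=
  and (Nat.beq (get7 f c) c) (allB 3 (fun k =>
    Nat.beq (get7 f (get7 f (Nat.succ k))) (conjN c (Nat.succ k))))

/-- `f` interchanges the two masks. -/
noncomputable def swapB (f : ℕ) : Bool :=
  and (allB 128 (fun i => or (not (tb MA i)) (tb MB (get7 f i))))
    (allB 128 (fun i => or (not (tb MB i)) (tb MA (get7 f i))))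

/-- Data for the map on the extension. -/
noncomputable def val3 (f c z : ℕ) : Bool :=
  and (not (tb MIM z)) (and (Nat.beq (mulN z z) (thN c))
    (allB 128 (fun j => Nat.beq (mulN (thN (get7 f j)) z) (mulN z (thN j)))))

/-- Data for a section of rank 5. -/
noncomputable def valR (f c y M K : ℕ) : Bool :=
  and (tb K (mulN (mulN (get7 f y) c) y))
    (allB 128 (fun h => or (not (tb M h)) (tb K (mulN (get7 f (conjN y h)) (invN h)))))

/-- The conclusion of the main check. -/
noncomputable def conclB (f c : ℕ) : Bool :=
  or (and (swapB f) (anyB 128 (fun z => val3 f c z)))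
    (anyB 128 (fun y => or (valR f c y M0 K0) (valR f c y M1 K1)))

/-- The check for the images of the generators. -/
noncomputable def chkF (p q r : ℕ) : Bool :=
  and (recOK (extF p q r) p q r) (or (not (homOK (extF p q r)))
    (allB 128 (fun c => or (not (sqOK (extF p q r) c)) (conclB (extF p q r) c))))

/-- The main check. -/
noncomputable def chkMain : Bool :=
  allB 128 (fun p => or (not (ok1 p)) (allB 128 (fun q => or (not (ok2 p q))
    (allB 128 (fun r => or (not (ok3 p q r)) (chkF p q r))))))

/-- Counting the set bits below `n`. -/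
noncomputable def cntB (n : ℕ) (f : ℕ → Bool) : ℕ :=
  Nat.rec 0 (fun k ih => Nat.add ih (cond (f k) 1 0)) n

/-- The elements of the mask. -/
noncomputable def cntM (m : ℕ) : ℕ := cntB 128 (tb m)

/-- The mask is closed under multiplication. -/
noncomputable def closedB (m : ℕ) : Bool :=
  allB 128 (fun i => or (not (tb m i)) (allB 128 (fun j => or (not (tb m j)) (tb m (mulN i j)))))

/-- The mask is a subgroup. -/
noncomputable def subB (m : ℕ) : Bool :=
  and (tb m 0) (and (closedB m) (allB 128 (fun i => or (not (tb m i)) (tb m (invN i)))))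

/-- The second mask is inside the first. -/
noncomputable def leB (k m : ℕ) : Bool :=
  allB 128 (fun i => or (not (tb k i)) (tb m i))

/-- The pair of masks is a section of rank 4: the second is normal in the first, with quotient of
exponent two and order 16. -/
noncomputable def secB (m k : ℕ) : Bool :=
  and (subB m) (and (subB k) (and (leB k m) (and
    (allB 128 (fun h => or (not (tb m h)) (and (tb k (mulN h h))
      (allB 128 (fun a => or (not (tb k a)) (tb k (conjN h a)))))))
    (Nat.beq (cntM m) (Nat.mul 16 (cntM k))))))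

/-- The test in the enumeration of normal subgroups of order 16. -/
noncomputable def testE (U : ℕ) : Bool :=
  or (not (and (Nat.beq (cntM U) 16) (closedB U))) (or (Nat.beq U MA) (Nat.beq U MB))

/-- Enumeration of unions of classes. -/
noncomputable def enumU : List ℕ → ℕ → Bool
  | [], acc => testE acc
  | m :: l, acc => and (enumU l acc) (enumU l (Nat.lor acc m))

/-- Each entry of `CLS` is a conjugacy class. -/
noncomputable def clsB (m : ℕ) : Bool :=
  allB 128 (fun i => or (not (tb m i)) (allB 128 (fun j => or (not (tb m j))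
    (anyB 128 (fun y => Nat.beq (conjN y i) j)))))

/-- Each involution lies in an entry of `CLS`. -/
noncomputable def covB : Bool :=
  allB 128 (fun i => or (Nat.beq i 0) (or (not (Nat.beq (mulN i i) 0))
    (List.any CLS (fun m => tb m i))))

/-- The two masks are normal subgroups of order 16 of exponent 2. -/
noncomputable def e16B (m : ℕ) : Bool :=
  and (subB m) (and (Nat.beq (cntM m) 16) (allB 128 (fun i => or (not (tb m i))
    (and (Nat.beq (mulN i i) 0) (allB 128 (fun y => tb m (conjN y i)))))))

/-- The table is that of the permutations. -/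
noncomputable def chkPermInv : Bool :=
  allB 128 (fun i => allB 8 (fun k =>
    and (Nat.beq (pg (invN i) (pg i k)) k) (Nat.beq (pg i (pg (invN i) k)) k)))

/-- The table is that of the permutations. -/
noncomputable def chkPermMul : Bool :=
  allB 128 (fun i => allB 128 (fun j => allB 8 (fun k => Nat.beq (pg (mulN i j) k) (pg i (pg j k)))))

/-- The table is that of the permutations. -/
noncomputable def chkPermInj : Bool :=
  allB 128 (fun i => allB 128 (fun j => or (Nat.beq i j) (not (allB 8 (fun k => Nat.beq (pg i k) (pg j k))))))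

/-- The table is that of the permutations. -/
noncomputable def chkPermOne : Bool := allB 8 (fun k => Nat.beq (pg 0 k) k)

/-- The breadth-first tree. -/
noncomputable def chkPar : Bool :=
  allB 127 (fun k => and (Nat.ble (parN (Nat.succ k)) k) (and (Nat.ble (genN (Nat.succ k)) 2)
    (Nat.beq (mulN (parN (Nat.succ k)) (Nat.succ (genN (Nat.succ k)))) (Nat.succ k))))

/-- Basic facts on the table. -/
noncomputable def chkBase : Bool :=
  and (Nat.beq (mulN 0 0) 0) (allB 128 (fun i => Nat.beq (mulN i (invN i)) 0))

/-- The central elements. -/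
noncomputable def chkCenter : Bool :=
  allB 128 (fun i => or (Nat.beq i 0) (or (Nat.beq i 127)
    (not (allB 128 (fun j => Nat.beq (mulN i j) (mulN j i))))))

/-- `THETA` is a homomorphism. -/
noncomputable def chkThetaMul : Bool :=
  allB 128 (fun i => allB 128 (fun j => Nat.beq (thN (mulN i j)) (mulN (thN i) (thN j))))

/-- The kernel and image of `THETA`. -/
noncomputable def chkThetaKer : Bool :=
  and (Nat.beq (thN 127) 0) (and (allB 128 (fun i => or (Nat.beq i 0) (or (Nat.beq i 127)
    (not (Nat.beq (thN i) 0))))) (and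
    (allB 128 (fun k => or (not (tb MIM k)) (anyB 128 (fun i => Nat.beq (thN i) k)))) (and
    (allB 128 (fun k => or (tb MIM k) (allB 128 (fun z => or (tb MIM z)
      (tb MIM (mulN k (invN z)))))))
    (allB 128 (fun i => allB 128 (fun z => or (tb MIM z) (not (Nat.beq (mulN (thN i) z) 0))))))))

/-- The masks differ. -/
def chkNe : Bool := not (Nat.beq MA MB)

end Cfsg.Agent.Lib.P128
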