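/-
The main kernel check.
-/
import Cfsg.Agent.Lib.P128.Defs

set_option autoImplicit false

namespace Cfsg.Agent.Lib.P128

theorem chkMain_true : chkMain = true := by decide +kernel

end Cfsg.Agent.Lib.P128
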