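/-
The kernel checks.
-/
import Cfsg.Agent.Lib.P128.Defs

set_option autoImplicit false

namespace Cfsg.Agent.Lib.P128

theorem chkPermInv_true : chkPermInv = true := by decide +kernel
theorem chkPermMul_true : chkPermMul = true := by decide +kernel
theorem chkPermInj_true : chkPermInj = true := by decide +kernel
theorem chkPermOne_true : chkPermOne = true := by decide +kernel
theorem chkPar_true : chkPar = true := by decide +kernel
theorem chkBase_true : chkBase = true := by decide +kernel
theorem chkCenter_true : chkCenter = true := by decide +kernel
theorem chkThetaMul_true : chkThetaMul = true := by decide +kernel
theorem chkThetaKer_true : chkThetaKer = true := by decide +kernel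
theorem chkNe_true : chkNe = true := by decide +kernel
theorem secB0_true : secB M0 K0 = true := by decide +kernel
theorem secB1_true : secB M1 K1 = true := by decide +kernel
theorem e16A_true : e16B MA = true := by decide +kernel
theorem e16B_true : e16B MB = true := by decide +kernel
theorem enumU_true : enumU CLS 1 = true := by decide +kernel
theorem clsB_true : List.all CLS clsB = true := by decide +kernel
theorem covB_true : covB = true := by decide +kernel

end Cfsg.Agent.Lib.P128
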