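/-
The table realised in the symmetric group on eight letters, as a Sylow 2-subgroup.
-/
import Cfsg.Agent.Lib.P128.Chk

set_option autoImplicit false

namespace Cfsg.Agent.Lib.P128

open Equiv

theorem get7_lt (f i : ℕ) : get7 f i < 128 := Nat.mod_lt _ (by norm_num)

theorem mulN_lt (i j : ℕ) : mulN i j < 128 := Nat.mod_lt _ (by norm_num)

theorem invN_lt (i : ℕ) : invN i < 128 := get7_lt _ _

theorem conjN_lt (y h : ℕ) : conjN y h < 128 := mulN_lt _ _

theorem thN_lt (i : ℕ) : thN i < 128 := get7_lt _ _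

theorem pg_lt (i k : ℕ) : pg i k < 8 := Nat.mod_lt _ (by norm_num)

theorem beq_iff {a b : ℕ} : Nat.beq a b = true ↔ a = b := by
  rw [Nat.beq_eq]

theorem perm_inv {i k : ℕ} (hi : i < 128) (hk : k < 8) :
    pg (invN i) (pg i k) = k ∧ pg i (pg (invN i) k) = k := by
  have h := (allB_iff _ _).mp ((allB_iff _ _).mp chkPermInv_true i hi) k hk
  simp only [Bool.and_eq_true, beq_iff] at h
  exact h

theorem perm_mul {i j k : ℕ} (hi : i < 128) (hj : j < 128) (hk : k < 8) :
    pg (mulN i j) k = pg i (pg j k) := by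
  have h := (allB_iff _ _).mp ((allB_iff _ _).mp ((allB_iff _ _).mp chkPermMul_true i hi) j hj) k hk
  exact beq_iff.mp h

theorem perm_inj {i j : ℕ} (hi : i < 128) (hj : j < 128) (h : ∀ k, k < 8 → pg i k = pg j k) :
    i = j := by
  have h1 := (allB_iff _ _).mp ((allB_iff _ _).mp chkPermInj_true i hi) j hj
  simp only [Bool.or_eq_true, beq_iff] at h1
  rcases h1 with h1 | h1
  · exact h1
  · exfalso
    have h2 : allB 8 (fun k => Nat.beq (pg i k) (pg j k)) = true :=
      (allB_iff _ _).mpr (fun k hk => beq_iff.mpr (h k hk))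
    simp [h2] at h1

theorem perm_one {k : ℕ} (hk : k < 8) : pg 0 k = k := by
  exact beq_iff.mp ((allB_iff _ _).mp chkPermOne_true k hk)

theorem mod128 (i : ℕ) : i % 128 < 128 := Nat.mod_lt _ (by norm_num)

/-- The permutation of an index. -/
def E (i : ℕ) : Perm (Fin 8) where
  toFun k := ⟨pg (i % 128) k, pg_lt _ _⟩
  invFun k := ⟨pg (invN (i % 128)) k, pg_lt _ _⟩
  left_inv k := by
    apply Fin.ext
    exact (perm_inv (mod128 i) k.2).1
  right_inv k := by
    apply Fin.ext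
    exact (perm_inv (mod128 i) k.2).2

theorem E_apply (i : ℕ) (k : Fin 8) : ((E i) k : ℕ) = pg (i % 128) k := rfl

theorem E_mod (i : ℕ) : E (i % 128) = E i := by
  ext k
  simp [E_apply]

theorem E_mul {i j : ℕ} (hi : i < 128) (hj : j < 128) : E (mulN i j) = E i * E j := by
  ext k
  rw [Perm.mul_apply, E_apply, E_apply, E_apply, Nat.mod_eq_of_lt hi, Nat.mod_eq_of_lt hj,
    Nat.mod_eq_of_lt (mulN_lt i j)]
  exact perm_mul hi hj k.2

theorem E_zero : E 0 = 1 := by
  ext k
  rw [E_apply]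
  exact perm_one k.2

theorem E_inj {i j : ℕ} (hi : i < 128) (hj : j < 128) (h : E i = E j) : i = j := by
  apply perm_inj hi hj
  intro k hk
  have h1 := congrArg (fun σ : Perm (Fin 8) => ((σ ⟨k, hk⟩ : Fin 8) : ℕ)) h
  simp only [E_apply, Nat.mod_eq_of_lt hi, Nat.mod_eq_of_lt hj] at h1
  exact h1

theorem mulN_invN {i : ℕ} (hi : i < 128) : mulN i (invN i) = 0 := by
  have h := chkBase_true
  simp only [chkBase, Bool.and_eq_true] at h
  exact beq_iff.mp ((allB_iff _ _).mp h.2 i hi)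

theorem mulN_zero_zero : mulN 0 0 = 0 := by
  have h := chkBase_true
  simp only [chkBase, Bool.and_eq_true] at h
  exact beq_iff.mp h.1

theorem E_inv {i : ℕ} (hi : i < 128) : E (invN i) = (E i)⁻¹ := by
  have h := E_mul hi (invN_lt i)
  rw [mulN_invN hi, E_zero] at h
  exact (inv_eq_of_mul_eq_one_right h.symm).symm

/-- The table as a subgroup of the symmetric group. -/
def T₀ : Subgroup (Perm (Fin 8)) where
  carrier := Set.range E
  mul_mem' := by
    rintro _ _ ⟨a, rfl⟩ ⟨b, rfl⟩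
    refine ⟨mulN (a % 128) (b % 128), ?_⟩
    rw [E_mul (mod128 a) (mod128 b), E_mod, E_mod]
  one_mem' := ⟨0, E_zero⟩
  inv_mem' := by
    rintro _ ⟨a, rfl⟩
    exact ⟨invN (a % 128), by rw [E_inv (mod128 a), E_mod]⟩

theorem E_mem (i : ℕ) : E i ∈ T₀ := ⟨i, rfl⟩

theorem mem_T₀ {σ : Perm (Fin 8)} (h : σ ∈ T₀) : ∃ i, i < 128 ∧ E i = σ := by
  obtain ⟨a, rfl⟩ := h
  exact ⟨a % 128, mod128 a, E_mod a⟩

theorem card_T₀ : Nat.card T₀ = 128 := by
  have hb : Function.Bijective (fun i : Fin 128 => (⟨E i, E_mem _⟩ : T₀)) := by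
    constructor
    · intro a b h
      have h1 : E a = E b := congrArg Subtype.val h
      exact Fin.ext (E_inj a.2 b.2 h1)
    · rintro ⟨σ, hσ⟩
      obtain ⟨i, hi, rfl⟩ := mem_T₀ hσ
      exact ⟨⟨i, hi⟩, rfl⟩
  have := Nat.card_congr (Equiv.ofBijective _ hb)
  rw [← this]
  simp


theorem isPGroup_T₀ : IsPGroup 2 T₀ := IsPGroup.of_card (n := 7) (by rw [card_T₀]; norm_num)

theorem index_T₀ : ¬ 2 ∣ T₀.index := by
  have h := Subgroup.index_mul_card T₀
  rw [card_T₀, Nat.card_eq_fintype_card, Fintype.card_perm, Fintype.card_fin] at h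
  have h8 : Nat.factorial 8 = 40320 := by decide
  rw [h8] at h
  have : T₀.index = 315 := by omega
  rw [this]
  norm_num

/-- The table as a Sylow subgroup. -/
noncomputable def T₀S : Sylow 2 (Perm (Fin 8)) := isPGroup_T₀.toSylow index_T₀

theorem T₀S_coe : (T₀S : Subgroup (Perm (Fin 8))) = T₀ := by
  simp [T₀S]

end Cfsg.Agent.Lib.P128
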