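/-
The table inside a group: representations, the action of a normalising element, and what the main
check gives.
-/
import Cfsg.Agent.Lib.P128.Perm
import Cfsg.Agent.Lib.P128.ChkMain

set_option autoImplicit false

namespace Cfsg.Agent.Lib.P128

universe u

variable {S : Type u} [Group S]

/-- `ψ` identifies the table with the subgroup `P`. -/
structure Rep (P : Subgroup S) (ψ : ℕ → S) : Prop where
  mul : ∀ i j, i < 128 → j < 128 → ψ (mulN i j) = ψ i * ψ j
  inj : ∀ i j, i < 128 → j < 128 → ψ i = ψ j → i = j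
  mem : ∀ g, g ∈ P ↔ ∃ i, i < 128 ∧ ψ i = g

namespace Rep

variable {P : Subgroup S} {ψ : ℕ → S}

theorem one (h : Rep P ψ) : ψ 0 = 1 := by
  have h1 := h.mul 0 0 (by norm_num) (by norm_num)
  rw [mulN_zero_zero] at h1
  exact left_eq_mul.mp h1

theorem inv (h : Rep P ψ) {i : ℕ} (hi : i < 128) : ψ (invN i) = (ψ i)⁻¹ := by
  have h1 := h.mul i (invN i) hi (invN_lt i)
  rw [mulN_invN hi, h.one] at h1
  exact (inv_eq_of_mul_eq_one_right h1.symm).symm

theorem conj (h : Rep P ψ) {y a : ℕ} (hy : y < 128) (ha : a < 128) :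
    ψ (conjN y a) = ψ y * ψ a * (ψ y)⁻¹ := by
  unfold conjN
  rw [h.mul _ _ (mulN_lt _ _) (invN_lt _), h.mul _ _ hy ha, h.inv hy]

theorem mem_of_lt (h : Rep P ψ) {i : ℕ} (hi : i < 128) : ψ i ∈ P :=
  (h.mem _).mpr ⟨i, hi, rfl⟩

end Rep

/-- The element `x` conjugates the entry `i` to the entry `j`. -/
def Rel (ψ : ℕ → S) (x : S) (i j : ℕ) : Prop := i < 128 ∧ j < 128 ∧ ψ j = x * ψ i * x⁻¹

section rel

variable {P : Subgroup S} {ψ : ℕ → S} {x : S}

theorem Rel.mul (h : Rep P ψ) {i i' j j' : ℕ} (a : Rel ψ x i i') (b : Rel ψ x j j') :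
    Rel ψ x (mulN i j) (mulN i' j') := by
  refine ⟨mulN_lt _ _, mulN_lt _ _, ?_⟩
  rw [h.mul _ _ a.2.1 b.2.1, h.mul _ _ a.1 b.1, a.2.2, b.2.2]
  group

theorem Rel.zero_iff (h : Rep P ψ) {i i' : ℕ} (a : Rel ψ x i i') : i = 0 ↔ i' = 0 := by
  constructor
  · rintro rfl
    have h1 := a.2.2
    rw [h.one] at h1
    have h2 : ψ i' = ψ 0 := by rw [h1, h.one]; group
    exact h.inj _ _ a.2.1 (by norm_num) h2
  · rintro rfl
    have h1 := a.2.2
    rw [h.one] at h1
    have h2 : ψ i = ψ 0 := by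
      rw [h.one]
      have h3 : x * ψ i = x := by
        have h4 := congrArg (fun g => g * x) h1
        simpa using h4.symm
      simpa using h3
    exact h.inj _ _ a.1 (by norm_num) h2

theorem Rel.beq (h : Rep P ψ) {i i' : ℕ} (a : Rel ψ x i i') : Nat.beq i 0 = Nat.beq i' 0 := by
  rw [Bool.eq_iff_iff, beq_iff, beq_iff]
  exact a.zero_iff h

theorem Rel.oc (h : Rep P ψ) {i i' : ℕ} (a : Rel ψ x i i') : oc i = oc i' := by
  unfold P128.oc
  have h2 := a.mul h a
  have h3 := h2.mul h h2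
  rw [a.beq h, h2.beq h, h3.beq h]

theorem Rel.unique (h : Rep P ψ) {i i' i'' : ℕ} (a : Rel ψ x i i') (b : Rel ψ x i i'') : i' = i'' :=
  h.inj _ _ a.2.1 b.2.1 (by rw [a.2.2, b.2.2])

end rel

theorem chk_apply {P : Subgroup S} {ψ : ℕ → S} (h : Rep P ψ) (x : S)
    (hx : ∀ g ∈ P, x * g * x⁻¹ ∈ P) {c : ℕ} (hc : c < 128) (hc2 : ψ c = x * x) :
    ∃ f : ℕ, (∀ i, i < 128 → ψ (get7 f i) = x * ψ i * x⁻¹) ∧ conclB f c = true := by
  have hact : ∀ i, i < 128 → ∃ j, Rel ψ x i j := by
    intro i hi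
    obtain ⟨j, hj, hj2⟩ := (h.mem _).mp (hx _ (h.mem_of_lt hi))
    exact ⟨j, hi, hj, hj2⟩
  obtain ⟨p, hp⟩ := hact 1 (by norm_num)
  obtain ⟨q, hq⟩ := hact 2 (by norm_num)
  obtain ⟨r, hr⟩ := hact 3 (by norm_num)
  have h1 : ok1 p = true := by
    unfold ok1
    rw [hp.oc h, beq_iff]
  have h2 : ok2 p q = true := by
    unfold ok2
    rw [Bool.and_eq_true, beq_iff, beq_iff]
    exact ⟨(hq.oc h).symm, ((hp.mul h hq).oc h).symm⟩
  have h3 : ok3 p q r = true := by
    unfold ok3
    simp only [Bool.and_eq_true, beq_iff]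
    exact ⟨(hr.oc h).symm, ((hp.mul h hr).oc h).symm, ((hq.mul h hr).oc h).symm,
      (((hp.mul h hq).mul h hr).oc h).symm, (((hp.mul h hr).mul h hq).oc h).symm⟩
  have hm := chkMain_true
  unfold chkMain at hm
  have hm1 := (allB_iff _ _).mp hm p hp.2.1
  simp only [h1, Bool.not_true, Bool.false_or] at hm1
  have hm2 := (allB_iff _ _).mp hm1 q hq.2.1
  simp only [h2, Bool.not_true, Bool.false_or] at hm2
  have hm3 := (allB_iff _ _).mp hm2 r hr.2.1
  simp only [h3, Bool.not_true, Bool.false_or] at hm3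
  unfold chkF at hm3
  rw [Bool.and_eq_true] at hm3
  obtain ⟨hrec, hrest⟩ := hm3
  generalize extF p q r = f at hrec hrest
  unfold recOK at hrec
  rw [Bool.and_eq_true] at hrec
  obtain ⟨hrec0, hrec1⟩ := hrec
  have hG : ∀ k, k ≤ 2 → Rel ψ x (Nat.succ k) (imG p q r k) := by
    intro k hk
    interval_cases k
    · exact hp
    · exact hq
    · exact hr
  have hrel : ∀ i, i < 128 → Rel ψ x i (get7 f i) := by
    intro i
    induction i using Nat.strong_induction_on with
    | _ i ih =>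
      intro hi
      rcases i with _ | k
      · rw [beq_iff.mp hrec0]
        refine ⟨by norm_num, by norm_num, ?_⟩
        rw [h.one]
        group
      · have hk : k < 127 := by omega
        have h4 := (allB_iff _ _).mp hrec1 k hk
        have h5 := (allB_iff _ _).mp chkPar_true k hk
        simp only [Bool.and_eq_true] at h5
        obtain ⟨h6, h7, h8⟩ := h5
        have h6' : parN (Nat.succ k) ≤ k := Nat.le_of_ble_eq_true h6
        have h7' : genN (Nat.succ k) ≤ 2 := Nat.le_of_ble_eq_true h7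
        have h9 := (ih (parN (Nat.succ k)) (by omega) (by omega)).mul h (hG _ h7')
        rw [beq_iff.mp h8, ← beq_iff.mp h4] at h9
        exact h9
  refine ⟨f, fun i hi => (hrel i hi).2.2, ?_⟩
  have hhom : homOK f = true := by
    unfold homOK
    rw [allB_iff]
    intro i hi
    rw [allB_iff]
    intro k hk
    rw [beq_iff]
    have h4 := (hrel i hi).mul h (hrel (Nat.succ k) (by omega))
    exact (hrel _ (mulN_lt _ _)).unique h h4
  have hsq : sqOK f c = true := by
    unfold sqOK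
    rw [Bool.and_eq_true, beq_iff, allB_iff]
    constructor
    · apply h.inj _ _ (get7_lt _ _) hc
      rw [(hrel c hc).2.2, hc2]
      group
    · intro k hk
      rw [beq_iff]
      have h4 := hrel _ (get7_lt f (Nat.succ k))
      have h5 := hrel (Nat.succ k) (by omega)
      apply h.inj _ _ (get7_lt _ _) (conjN_lt _ _)
      rw [h4.2.2, h5.2.2, h.conj hc (by omega), hc2]
      group
  simp only [hhom, Bool.not_true, Bool.false_or] at hrest
  have h4 := (allB_iff _ _).mp hrest c hc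
  simp only [hsq, Bool.not_true, Bool.false_or] at h4
  exact h4

end Cfsg.Agent.Lib.P128
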