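/-
Sections of rank 5, subgroups from masks, and the main dichotomy.
-/
import Cfsg.Agent.Lib.P128.Rep
import Cfsg.Prelude.Def_CaseTheorems

set_option autoImplicit false

namespace Cfsg.Agent.Lib.P128

universe u

variable {S : Type u} [Group S]

/-- A section of order `2 |H|/|K|` of exponent 2. -/
theorem rank_bound [Finite S] (hr : Cfsg.SectionalPRankLE 2 4 S) (H K : Subgroup S) (hKH : K ≤ H)
    (x : S) (hx : x ∉ H)
    (h1 : ∀ a ∈ H, x * a * x⁻¹ * a⁻¹ ∈ K) (h2 : x * x ∈ K)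
    (h3 : ∀ a ∈ H, ∀ k ∈ K, a * k * a⁻¹ ∈ K) (h4 : ∀ a ∈ H, a * a ∈ K) :
    2 * Nat.card H ≤ 16 * Nat.card K := by
  have hxx : x * x ∈ H := hKH h2
  have hc : ∀ a ∈ H, x * a * x⁻¹ ∈ H := by
    intro a ha
    have h5 := H.mul_mem (hKH (h1 a ha)) ha
    simpa using h5
  have hc' : ∀ a ∈ H, x⁻¹ * a * x ∈ H := by
    intro a ha
    have h5 := H.mul_mem (H.mul_mem (H.inv_mem hxx) (hc a ha)) hxx
    have h6 : (x * x)⁻¹ * (x * a * x⁻¹) * (x * x) = x⁻¹ * a * x := by group
    rwa [h6] at h5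
  let L : Subgroup S :=
    { carrier := {g | g ∈ H ∨ g * x⁻¹ ∈ H}
      mul_mem' := by
        rintro g g' (hg | hg) (hg' | hg')
        · exact Or.inl (H.mul_mem hg hg')
        · refine Or.inr ?_
          have h5 := H.mul_mem hg hg'
          rwa [← mul_assoc] at h5
        · refine Or.inr ?_
          have h5 := H.mul_mem hg (hc g' hg')
          have h6 : g * x⁻¹ * (x * g' * x⁻¹) = g * g' * x⁻¹ := by group
          rwa [h6] at h5
        · refine Or.inl ?_
          have h5 := H.mul_mem (H.mul_mem hg (hc _ hg')) hxx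
          have h6 : g * x⁻¹ * (x * (g' * x⁻¹) * x⁻¹) * (x * x) = g * g' := by group
          rwa [h6] at h5
      one_mem' := Or.inl H.one_mem
      inv_mem' := by
        rintro g (hg | hg)
        · exact Or.inl (H.inv_mem hg)
        · refine Or.inr ?_
          have h5 := H.mul_mem (hc' _ (H.inv_mem hg)) (H.inv_mem hxx)
          have h6 : x⁻¹ * (g * x⁻¹)⁻¹ * x * (x * x)⁻¹ = g⁻¹ * x⁻¹ := by group
          rwa [h6] at h5 }
  have hmemL : ∀ g, g ∈ L ↔ (g ∈ H ∨ g * x⁻¹ ∈ H) := fun g => Iff.rfl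
  have hHL : H ≤ L := fun g hg => Or.inl hg
  have hKL : K ≤ L := hKH.trans hHL
  have hxL : x ∈ L := Or.inr (by simpa using H.one_mem)
  -- elements of `L` normalize `K`, and have squares in `K`
  have hck : ∀ k ∈ K, x * k * x⁻¹ ∈ K := by
    intro k hk
    have h5 := K.mul_mem (h1 k (hKH hk)) hk
    simpa using h5
  have hnorm : ∀ g ∈ L, ∀ k ∈ K, g * k * g⁻¹ ∈ K := by
    rintro g (hg | hg) k hk
    · exact h3 g hg k hk
    · have h5 := h3 _ hg _ (hck k hk)
      have h6 : g * x⁻¹ * (x * k * x⁻¹) * (g * x⁻¹)⁻¹ = g * k * g⁻¹ := by group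
      rwa [h6] at h5
  have hsq : ∀ g ∈ L, g * g ∈ K := by
    rintro g (hg | hg)
    · exact h4 g hg
    · have h5 := h1 _ hg
      have h7 := K.mul_mem (K.mul_mem (h3 _ hg _ h5) (h4 _ hg)) h2
      have h6 : g * x⁻¹ * (x * (g * x⁻¹) * x⁻¹ * (g * x⁻¹)⁻¹) * (g * x⁻¹)⁻¹ * (g * x⁻¹ * (g * x⁻¹)) * (x * x) = g * g := by
        group
      rwa [h6] at h7
  let N : Subgroup L := K.subgroupOf L
  haveI hN : N.Normal := by
    constructor
    rintro ⟨k, hk⟩ hk' ⟨g, hg⟩
    rw [Subgroup.mem_subgroupOf] at hk' ⊢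
    exact hnorm g hg k hk'
  have hexp : ∀ a : L ⧸ N, a * a = 1 := by
    intro a
    obtain ⟨⟨g, hg⟩, rfl⟩ := QuotientGroup.mk_surjective a
    rw [← QuotientGroup.mk_mul, QuotientGroup.eq_one_iff, Subgroup.mem_subgroupOf]
    exact hsq g hg
  have hcomm : ∀ a b : L ⧸ N, a * b = b * a := by
    intro a b
    have h5 := hexp (a * b)
    have h6 := hexp a
    have h7 := hexp b
    calc a * b = a * (a * b * (a * b)) * b := by rw [h5]; simp
      _ = (a * a) * b * a * (b * b) := by group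
      _ = b * a := by rw [h6, h7]; simp
  have hQ : Nat.card (L ⧸ N) ≤ 16 := by
    have h5 := hr L N (⊤ : Subgroup (L ⧸ N)) ⟨⟨fun a b => Subtype.ext (hcomm _ _)⟩⟩
      (fun a _ => by rw [pow_two]; exact hexp a)
    rw [Subgroup.card_top] at h5
    simpa using h5
  have hcardN : Nat.card N = Nat.card K :=
    Nat.card_congr (Subgroup.subgroupOfEquivOfLe hKL).toEquiv
  have hL : Nat.card L = Nat.card (L ⧸ N) * Nat.card K := by
    rw [← hcardN]
    exact Subgroup.card_eq_card_quotient_mul_card_subgroup N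
  obtain ⟨t, ht⟩ := Subgroup.card_dvd_of_le hHL
  have hH0 : 0 < Nat.card H := Nat.card_pos
  have ht2 : 2 ≤ t := by
    by_contra hlt
    have ht0 : t ≠ 0 := by
      rintro rfl
      have : 0 < Nat.card L := Nat.card_pos
      omega
    have ht1 : t = 1 := by omega
    rw [ht1, mul_one] at ht
    have h5 : H = L := Subgroup.eq_of_le_of_card_ge hHL ht.le
    exact hx (h5 ▸ hxL)
  have h5 : 2 * Nat.card H ≤ Nat.card L := by
    rw [ht, mul_comm]
    exact Nat.mul_le_mul_left _ ht2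
  have h6 : Nat.card L ≤ 16 * Nat.card K := by
    rw [hL]
    exact Nat.mul_le_mul_right _ hQ
  omega

theorem tb_eq (m i : ℕ) : tb m i = m.testBit i := by
  unfold tb
  rw [Nat.testBit_eq_decide_div_mod_eq, Bool.eq_iff_iff, beq_iff, decide_eq_true_iff]
  have h : Nat.shiftRight m i = m / 2 ^ i := Nat.shiftRight_eq_div_pow m i
  rw [h]
  rfl

theorem tb_lor (a b i : ℕ) : tb (Nat.lor a b) i = or (tb a i) (tb b i) := by
  simp only [tb_eq]
  exact Nat.testBit_or a b i

theorem cntB_eq (n : ℕ) (f : ℕ → Bool) :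
    cntB n f = ((Finset.range n).filter (fun i => f i = true)).card := by
  induction n with
  | zero => simp [cntB]
  | succ n ih =>
    have h1 : cntB (n + 1) f = cntB n f + cond (f n) 1 0 := rfl
    rw [h1, ih, Finset.range_add_one, Finset.filter_insert]
    cases hf : f n
    · simp
    · rw [if_pos rfl, Finset.card_insert_of_notMem]
      · rfl
      · simp

/-- The set of a mask. -/
def setM (ψ : ℕ → S) (m : ℕ) : Set S := {g | ∃ i, i < 128 ∧ tb m i = true ∧ ψ i = g}

theorem ncard_setM {P : Subgroup S} {ψ : ℕ → S} (h : Rep P ψ) (m : ℕ) :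
    (setM ψ m).ncard = cntM m := by
  have h1 : setM ψ m = ψ '' (((Finset.range 128).filter (fun i => tb m i = true) : Finset ℕ) : Set ℕ) := by
    ext g
    simp only [setM, Set.mem_setOf_eq, Set.mem_image, Finset.coe_filter, Finset.mem_range]
    constructor
    · rintro ⟨i, hi, hm, rfl⟩
      exact ⟨i, ⟨hi, hm⟩, rfl⟩
    · rintro ⟨i, ⟨hi, hm⟩, rfl⟩
      exact ⟨i, hi, hm, rfl⟩
  rw [h1, Set.ncard_image_of_injOn, Set.ncard_coe_finset]
  · rw [cntM, cntB_eq]
  · intro a ha b hb hab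
    simp only [Finset.coe_filter, Finset.mem_range, Set.mem_setOf_eq] at ha hb
    exact h.inj _ _ ha.1 hb.1 hab

theorem closedB_spec {m : ℕ} (hm : closedB m = true) {i j : ℕ} (hi : i < 128) (hj : j < 128)
    (h1 : tb m i = true) (h2 : tb m j = true) : tb m (mulN i j) = true := by
  have h3 := (allB_iff _ _).mp hm i hi
  simp only [h1, Bool.not_true, Bool.false_or] at h3
  have h4 := (allB_iff _ _).mp h3 j hj
  simpa only [h2, Bool.not_true, Bool.false_or] using h4

/-- The subgroup of a mask. -/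
def subM {P : Subgroup S} {ψ : ℕ → S} (h : Rep P ψ) (m : ℕ) (hm : subB m = true) : Subgroup S where
  carrier := setM ψ m
  mul_mem' := by
    rintro _ _ ⟨i, hi, hi2, rfl⟩ ⟨j, hj, hj2, rfl⟩
    unfold subB at hm
    simp only [Bool.and_eq_true] at hm
    exact ⟨mulN i j, mulN_lt _ _, closedB_spec hm.2.1 hi hj hi2 hj2, h.mul i j hi hj⟩
  one_mem' := by
    unfold subB at hm
    simp only [Bool.and_eq_true] at hm
    exact ⟨0, by norm_num, hm.1, h.one⟩
  inv_mem' := by
    rintro _ ⟨i, hi, hi2, rfl⟩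
    unfold subB at hm
    simp only [Bool.and_eq_true] at hm
    have h3 := (allB_iff _ _).mp hm.2.2 i hi
    simp only [hi2, Bool.not_true, Bool.false_or] at h3
    exact ⟨invN i, invN_lt _, h3, h.inv hi⟩

theorem mem_subM {P : Subgroup S} {ψ : ℕ → S} (h : Rep P ψ) {m : ℕ} (hm : subB m = true) {g : S} :
    g ∈ subM h m hm ↔ ∃ i, i < 128 ∧ tb m i = true ∧ ψ i = g := Iff.rfl

theorem card_subM {P : Subgroup S} {ψ : ℕ → S} (h : Rep P ψ) {m : ℕ} (hm : subB m = true) :
    Nat.card (subM h m hm) = cntM m := by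
  rw [← ncard_setM h m]
  exact Nat.card_coe_set_eq _

theorem subM_le {P : Subgroup S} {ψ : ℕ → S} (h : Rep P ψ) {m : ℕ} (hm : subB m = true) :
    subM h m hm ≤ P := by
  rintro _ ⟨i, hi, -, rfl⟩
  exact h.mem_of_lt hi

/-- A witness for a section of rank 5 cannot exist. -/
theorem valR_ne [Finite S] (hr : Cfsg.SectionalPRankLE 2 4 S) {P : Subgroup S} {ψ : ℕ → S}
    (h : Rep P ψ) {x : S} (hxP : x ∉ P) {f c : ℕ}
    (hact : ∀ i, i < 128 → ψ (get7 f i) = x * ψ i * x⁻¹) (hc : c < 128) (hc2 : ψ c = x * x)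
    {y : ℕ} (hy : y < 128) {M K : ℕ} (hsec : secB M K = true) : valR f c y M K ≠ true := by
  intro hv
  unfold valR at hv
  rw [Bool.and_eq_true] at hv
  obtain ⟨hv1, hv2⟩ := hv
  unfold secB at hsec
  simp only [Bool.and_eq_true] at hsec
  obtain ⟨hsM, hsK, hle, hnorm, hcard⟩ := hsec
  have hcard' : cntM M = 16 * cntM K := beq_iff.mp hcard
  have hKH : subM h K hsK ≤ subM h M hsM := by
    rintro _ ⟨i, hi, hi2, rfl⟩
    refine ⟨i, hi, ?_, rfl⟩
    have h1 := (allB_iff _ _).mp hle i hi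
    simpa only [hi2, Bool.not_true, Bool.false_or] using h1
  have hnorm' : ∀ a, a < 128 → tb M a = true →
      tb K (mulN a a) = true ∧ ∀ k, k < 128 → tb K k = true → tb K (conjN a k) = true := by
    intro a ha ha2
    have h1 := (allB_iff _ _).mp hnorm a ha
    simp only [ha2, Bool.not_true, Bool.false_or, Bool.and_eq_true] at h1
    refine ⟨h1.1, fun k hk hk2 => ?_⟩
    have h2 := (allB_iff _ _).mp h1.2 k hk
    simpa only [hk2, Bool.not_true, Bool.false_or] using h2
  have hbound := rank_bound hr (subM h M hsM) (subM h K hsK) hKH (x * ψ y)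
    (by
      intro h1
      apply hxP
      have h2 := P.mul_mem (subM_le h hsM h1) (P.inv_mem (h.mem_of_lt hy))
      simpa using h2)
    (by
      rintro _ ⟨a, ha, ha2, rfl⟩
      have h1 := (allB_iff _ _).mp hv2 a ha
      simp only [ha2, Bool.not_true, Bool.false_or] at h1
      refine ⟨_, mulN_lt _ _, h1, ?_⟩
      rw [h.mul _ _ (get7_lt _ _) (invN_lt _), hact _ (conjN_lt _ _), h.conj hy ha, h.inv ha]
      group)
    (by
      refine ⟨_, mulN_lt _ _, hv1, ?_⟩
      rw [h.mul _ _ (mulN_lt _ _) hy, h.mul _ _ (get7_lt _ _) hc, hact _ hy, hc2]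
      group)
    (by
      rintro _ ⟨a, ha, ha2, rfl⟩ _ ⟨k, hk, hk2, rfl⟩
      refine ⟨conjN a k, conjN_lt _ _, (hnorm' a ha ha2).2 k hk hk2, h.conj ha hk⟩)
    (by
      rintro _ ⟨a, ha, ha2, rfl⟩
      exact ⟨mulN a a, mulN_lt _ _, (hnorm' a ha ha2).1, h.mul a a ha ha⟩)
  rw [card_subM, card_subM, hcard'] at hbound
  have hpos : 0 < cntM K := by
    rw [← card_subM h hsK]
    haveI : Finite (subM h K hsK) := inferInstance
    exact Nat.card_pos
  omega

/-- The main dichotomy: an element outside `P`, normalising `P`, with square in `P`, interchanges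
the two masks, and gives data for the map on the extension. -/
theorem main_step [Finite S] (hr : Cfsg.SectionalPRankLE 2 4 S) {P : Subgroup S} {ψ : ℕ → S}
    (h : Rep P ψ) {x : S} (hxP : x ∉ P) (hx : ∀ g ∈ P, x * g * x⁻¹ ∈ P) (hx2 : x * x ∈ P) :
    ∃ f c z : ℕ, c < 128 ∧ ψ c = x * x ∧ (∀ i, i < 128 → ψ (get7 f i) = x * ψ i * x⁻¹) ∧
      swapB f = true ∧ z < 128 ∧ val3 f c z = true := by
  obtain ⟨c, hc, hc2⟩ := (h.mem _).mp hx2
  obtain ⟨f, hact, hconcl⟩ := chk_apply h x hx hc hc2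
  unfold conclB at hconcl
  rw [Bool.or_eq_true] at hconcl
  rcases hconcl with hconcl | hconcl
  · rw [Bool.and_eq_true, anyB_iff] at hconcl
    obtain ⟨hs, z, hz, hv⟩ := hconcl
    exact ⟨f, c, z, hc, hc2, hact, hs, hz, hv⟩
  · rw [anyB_iff] at hconcl
    obtain ⟨y, hy, hv⟩ := hconcl
    exfalso
    rw [Bool.or_eq_true] at hv
    rcases hv with hv | hv
    · exact valR_ne hr h hxP hact hc hc2 hy secB0_true hv
    · exact valR_ne hr h hxP hact hc hc2 hy secB1_true hv

end Cfsg.Agent.Lib.P128
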