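/-
The normal elementary abelian subgroups of order 16.
-/
import Cfsg.Agent.Lib.P128.Sec

set_option autoImplicit false

namespace Cfsg.Agent.Lib.P128

universe u

variable {S : Type u} [Group S]

theorem enumU_spec (l : List ℕ) (acc : ℕ) (sel : ℕ → Bool) (h : enumU l acc = true) :
    testE (l.foldl (fun a m => cond (sel m) (Nat.lor a m) a) acc) = true := by
  induction l generalizing acc with
  | nil => exact h
  | cons m l ih =>
    simp only [enumU, Bool.and_eq_true] at h
    rw [List.foldl_cons]
    cases hs : sel m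
    · exact ih acc h.1
    · exact ih _ h.2

theorem fold_spec (l : List ℕ) (acc i : ℕ) (sel : ℕ → Bool) :
    tb (l.foldl (fun a m => cond (sel m) (Nat.lor a m) a) acc) i = true ↔
      tb acc i = true ∨ ∃ m ∈ l, sel m = true ∧ tb m i = true := by
  induction l generalizing acc with
  | nil => simp
  | cons m l ih =>
    rw [List.foldl_cons, ih]
    cases hs : sel m
    · simp only [cond_false, List.mem_cons]
      constructor
      · rintro (h | ⟨m', hm', h1, h2⟩)
        · exact Or.inl h
        · exact Or.inr ⟨m', Or.inr hm', h1, h2⟩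
      · rintro (h | ⟨m', rfl | hm', h1, h2⟩)
        · exact Or.inl h
        · simp [hs] at h1
        · exact Or.inr ⟨m', hm', h1, h2⟩
    · simp only [cond_true, List.mem_cons, tb_lor, Bool.or_eq_true]
      constructor
      · rintro ((h | h) | ⟨m', hm', h1, h2⟩)
        · exact Or.inl h
        · exact Or.inr ⟨m, Or.inl rfl, hs, h⟩
        · exact Or.inr ⟨m', Or.inr hm', h1, h2⟩
      · rintro (h | ⟨m', rfl | hm', h1, h2⟩)
        · exact Or.inl (Or.inl h)
        · exact Or.inl (Or.inr h2)
        · exact Or.inr ⟨m', hm', h1, h2⟩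

theorem e16_spec {m : ℕ} (hm : e16B m = true) :
    subB m = true ∧ cntM m = 16 ∧ ∀ i, i < 128 → tb m i = true →
      mulN i i = 0 ∧ ∀ y, y < 128 → tb m (conjN y i) = true := by
  unfold e16B at hm
  simp only [Bool.and_eq_true] at hm
  obtain ⟨h1, h2, h3⟩ := hm
  refine ⟨h1, beq_iff.mp h2, fun i hi hi2 => ?_⟩
  have h4 := (allB_iff _ _).mp h3 i hi
  simp only [hi2, Bool.not_true, Bool.false_or, Bool.and_eq_true] at h4
  exact ⟨beq_iff.mp h4.1, fun y hy => (allB_iff _ _).mp h4.2 y hy⟩

theorem subMA : subB MA = true := (e16_spec e16A_true).1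

theorem subMB : subB MB = true := (e16_spec e16B_true).1

variable {P : Subgroup S} {ψ : ℕ → S}

/-- The first normal elementary abelian subgroup of order 16. -/
def PA (h : Rep P ψ) : Subgroup S := subM h MA subMA

/-- The second normal elementary abelian subgroup of order 16. -/
def PB (h : Rep P ψ) : Subgroup S := subM h MB subMB

theorem e16_norm (h : Rep P ψ) {m : ℕ} (hm : e16B m = true) {g a : S} (hg : g ∈ P)
    (ha : a ∈ subM h m (e16_spec hm).1) : g * a * g⁻¹ ∈ subM h m (e16_spec hm).1 := by
  obtain ⟨i, hi, hi2, rfl⟩ := ha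
  obtain ⟨y, hy, rfl⟩ := (h.mem _).mp hg
  exact ⟨conjN y i, conjN_lt _ _, ((e16_spec hm).2.2 i hi hi2).2 y hy, h.conj hy hi⟩

theorem e16_exp (h : Rep P ψ) {m : ℕ} (hm : e16B m = true) {a : S}
    (ha : a ∈ subM h m (e16_spec hm).1) : a * a = 1 := by
  obtain ⟨i, hi, hi2, rfl⟩ := ha
  rw [← h.mul i i hi hi, ((e16_spec hm).2.2 i hi hi2).1, h.one]

theorem e16_card (h : Rep P ψ) {m : ℕ} (hm : e16B m = true) :
    Nat.card (subM h m (e16_spec hm).1) = 16 := by
  rw [card_subM, (e16_spec hm).2.1]

theorem PA_norm (h : Rep P ψ) {g a : S} (hg : g ∈ P) (ha : a ∈ PA h) : g * a * g⁻¹ ∈ PA h :=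
  e16_norm h e16A_true hg ha

theorem PB_norm (h : Rep P ψ) {g a : S} (hg : g ∈ P) (ha : a ∈ PB h) : g * a * g⁻¹ ∈ PB h :=
  e16_norm h e16B_true hg ha

theorem PA_exp (h : Rep P ψ) {a : S} (ha : a ∈ PA h) : a * a = 1 := e16_exp h e16A_true ha

theorem PB_exp (h : Rep P ψ) {a : S} (ha : a ∈ PB h) : a * a = 1 := e16_exp h e16B_true ha

theorem PA_card (h : Rep P ψ) : Nat.card (PA h) = 16 := e16_card h e16A_true

theorem PB_card (h : Rep P ψ) : Nat.card (PB h) = 16 := e16_card h e16B_true

/-- The two masks are the only normal elementary abelian subgroups of order 16. -/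
theorem e16_cases (h : Rep P ψ) (V : Subgroup S) (hVP : V ≤ P)
    (hnorm : ∀ g ∈ P, ∀ v ∈ V, g * v * g⁻¹ ∈ V) (hexp : ∀ v ∈ V, v * v = 1)
    (hcard : Nat.card V = 16) : V = PA h ∨ V = PB h := by
  classical
  let sel : ℕ → Bool := fun m => decide (∃ i, i < 128 ∧ tb m i = true ∧ ψ i ∈ V)
  let U := CLS.foldl (fun a m => cond (sel m) (Nat.lor a m) a) 1
  have hU : ∀ i, i < 128 → (tb U i = true ↔ ψ i ∈ V) := by
    intro i hi
    rw [fold_spec]
    constructor
    · rintro (h1 | ⟨m, hm, h1, h2⟩)
      · rw [tb_eq, Nat.testBit_one_eq_true_iff_self_eq_zero] at h1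
        subst h1
        rw [h.one]
        exact V.one_mem
      · have hs : ∃ j, j < 128 ∧ tb m j = true ∧ ψ j ∈ V := by simpa [sel] using h1
        obtain ⟨j, hj, hj2, hj3⟩ := hs
        have hcl := (List.all_eq_true.mp clsB_true) m hm
        unfold clsB at hcl
        have h3 := (allB_iff _ _).mp hcl j hj
        simp only [hj2, Bool.not_true, Bool.false_or] at h3
        have h4 := (allB_iff _ _).mp h3 i hi
        simp only [h2, Bool.not_true, Bool.false_or] at h4
        obtain ⟨y, hy, hy2⟩ := (anyB_iff _ _).mp h4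
        have h5 := hnorm _ (h.mem_of_lt hy) _ hj3
        rw [← h.conj hy hj, beq_iff.mp hy2] at h5
        exact h5
    · intro hv
      by_cases hi0 : i = 0
      · subst hi0
        left
        decide +kernel
      · right
        have hsq : mulN i i = 0 := by
          apply h.inj _ _ (mulN_lt _ _) (by norm_num)
          rw [h.mul i i hi hi, hexp _ hv, h.one]
        have hc := (allB_iff _ _).mp covB_true i hi
        simp only [Bool.or_eq_true, beq_iff, hi0, false_or, hsq, Bool.not_eq_eq_eq_not,
          Bool.not_true] at hc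
        have hc' : List.any CLS (fun m => tb m i) = true := by
          rcases hc with hc | hc
          · simp [hsq] at hc
          · exact hc
        obtain ⟨m, hm, hm2⟩ := List.any_eq_true.mp hc'
        refine ⟨m, hm, ?_, hm2⟩
        simp only [sel, decide_eq_true_eq]
        exact ⟨i, hi, hm2, hv⟩
  have hV : ∀ g, g ∈ V ↔ ∃ i, i < 128 ∧ tb U i = true ∧ ψ i = g := by
    intro g
    constructor
    · intro hg
      obtain ⟨i, hi, rfl⟩ := (h.mem _).mp (hVP hg)
      exact ⟨i, hi, (hU i hi).mpr hg, rfl⟩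
    · rintro ⟨i, hi, hi2, rfl⟩
      exact (hU i hi).mp hi2
  have hcU : cntM U = 16 := by
    rw [← ncard_setM h U, ← hcard, ← Nat.card_coe_set_eq]
    have h1 : setM ψ U = (V : Set S) := by
      ext g
      exact (hV g).symm
    rw [h1]
    rfl
  have hclosed : closedB U = true := by
    unfold closedB
    rw [allB_iff]
    intro i hi
    rw [Bool.or_eq_true]
    by_cases hi2 : tb U i = true
    · right
      rw [allB_iff]
      intro j hj
      rw [Bool.or_eq_true]
      by_cases hj2 : tb U j = true
      · right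
        rw [hU _ (mulN_lt _ _), h.mul i j hi hj]
        exact V.mul_mem ((hU i hi).mp hi2) ((hU j hj).mp hj2)
      · left
        simpa using hj2
    · left
      simpa using hi2
  have ht := enumU_spec CLS 1 sel enumU_true
  change testE U = true at ht
  unfold testE at ht
  simp only [hcU, hclosed, Bool.or_eq_true, Bool.not_eq_eq_eq_not, Bool.not_true,
    Bool.and_eq_false_iff] at ht
  rcases ht with ht | ht | ht
  · exfalso
    simp [beq_iff] at ht
  · left
    have hU' : U = MA := beq_iff.mp ht
    ext g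
    rw [hV, hU']
    rfl
  · right
    have hU' : U = MB := beq_iff.mp ht
    ext g
    rw [hV, hU']
    rfl

end Cfsg.Agent.Lib.P128
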