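/-
How elements normalising `P` act on the two normal elementary abelian subgroups of order 16.
-/
import Cfsg.Agent.Lib.P128.E16

set_option autoImplicit false

namespace Cfsg.Agent.Lib.P128

universe u

variable {S : Type u} [Group S]

theorem conj_mem_of_normalizer {P : Subgroup S} {y g : S} (hy : y ∈ Subgroup.normalizer (P : Set S))
    (hg : g ∈ P) : y * g * y⁻¹ ∈ P :=
  (Subgroup.mem_normalizer_iff.mp hy g).mp hg

theorem pow_trick {P : Subgroup S} {y : S} (h2 : IsPGroup 2 S) (hyP : y ∉ P) :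
    ∃ j : ℕ, y ^ 2 ^ j ∉ P ∧ y ^ 2 ^ j * y ^ 2 ^ j ∈ P := by
  classical
  obtain ⟨m, hm⟩ := h2 y
  have hex : ∃ j : ℕ, y ^ 2 ^ j ∈ P := ⟨m, by rw [hm]; exact P.one_mem⟩
  have h0 : Nat.find hex ≠ 0 := by
    intro h0
    have h1 := Nat.find_spec hex
    rw [h0] at h1
    apply hyP
    simpa using h1
  obtain ⟨j, hj⟩ := Nat.exists_eq_succ_of_ne_zero h0
  refine ⟨j, Nat.find_min hex (by omega), ?_⟩
  have h1 := Nat.find_spec hex
  rw [hj, Nat.succ_eq_add_one, pow_succ, mul_two, pow_add] at h1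
  exact h1

theorem pow_normalizes {A : Subgroup S} {y : S} (hy : ∀ a ∈ A, y * a * y⁻¹ ∈ A) (n : ℕ) :
    ∀ a ∈ A, y ^ n * a * (y ^ n)⁻¹ ∈ A := by
  induction n with
  | zero => simp
  | succ n ih =>
    intro a ha
    have h1 := hy _ (ih a ha)
    have h2 : y * (y ^ n * a * (y ^ n)⁻¹) * y⁻¹ = y ^ (n + 1) * a * (y ^ (n + 1))⁻¹ := by
      rw [pow_succ']
      group
    rwa [h2] at h1

theorem surj_of_normalizes [Finite S] {A : Subgroup S} {x : S} (hx : ∀ a ∈ A, x * a * x⁻¹ ∈ A)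
    {b : S} (hb : b ∈ A) : ∃ a ∈ A, x * a * x⁻¹ = b := by
  let φ : A → A := fun a => ⟨x * a * x⁻¹, hx a a.2⟩
  have hφ : Function.Injective φ := by
    intro a a' haa
    have h1 : x * (a : S) * x⁻¹ = x * a' * x⁻¹ := congrArg Subtype.val haa
    apply Subtype.ext
    simpa using h1
  obtain ⟨a, ha⟩ := Finite.surjective_of_injective hφ ⟨b, hb⟩
  exact ⟨a, a.2, congrArg Subtype.val ha⟩

section

variable [Finite S] {P : Subgroup S} {ψ : ℕ → S}

theorem tb_facts : tb MA 1 = true ∧ tb MB 1 = false ∧ tb MB 2 = true ∧ tb MA 2 = false := by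
  decide +kernel

/-- An element outside `P` normalising `P` normalises neither of the two subgroups. -/
theorem not_norm (h2 : IsPGroup 2 S) (hr : Cfsg.SectionalPRankLE 2 4 S) (h : Rep P ψ) {y : S}
    (hyN : y ∈ Subgroup.normalizer (P : Set S)) (hyP : y ∉ P) :
    (¬ ∀ a ∈ PA h, y * a * y⁻¹ ∈ PA h) ∧ (¬ ∀ b ∈ PB h, y * b * y⁻¹ ∈ PB h) := by
  obtain ⟨j, hj1, hj2⟩ := pow_trick h2 hyP
  have hxN : y ^ 2 ^ j ∈ Subgroup.normalizer (P : Set S) := Subgroup.pow_mem _ hyN _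
  obtain ⟨f, c, z, hc, hc2, hact, hs, hz, hv⟩ :=
    main_step hr h hj1 (fun g hg => conj_mem_of_normalizer hxN hg) hj2
  unfold swapB at hs
  rw [Bool.and_eq_true, allB_iff, allB_iff] at hs
  obtain ⟨hs1, hs2⟩ := hs
  obtain ⟨t1, t2, t3, t4⟩ := tb_facts
  constructor
  · intro hA
    have hA' := pow_normalizes hA (2 ^ j)
    obtain ⟨a, ⟨i, hi, hi2, rfl⟩, ha⟩ := surj_of_normalizes hA' (show ψ 1 ∈ PA h from
      ⟨1, by norm_num, t1, rfl⟩)
    have h3 := hs1 i hi
    simp only [hi2, Bool.not_true, Bool.false_or] at h3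
    rw [← hact i hi] at ha
    have h4 := h.inj _ _ (get7_lt _ _) (by norm_num) ha
    rw [h4, t2] at h3
    exact Bool.false_ne_true h3
  · intro hB
    have hB' := pow_normalizes hB (2 ^ j)
    obtain ⟨a, ⟨i, hi, hi2, rfl⟩, ha⟩ := surj_of_normalizes hB' (show ψ 2 ∈ PB h from
      ⟨2, by norm_num, t3, rfl⟩)
    have h3 := hs2 i hi
    simp only [hi2, Bool.not_true, Bool.false_or] at h3
    rw [← hact i hi] at ha
    have h4 := h.inj _ _ (get7_lt _ _) (by norm_num) ha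
    rw [h4, t4] at h3
    exact Bool.false_ne_true h3

/-- The conjugate of a normal elementary abelian subgroup of order 16. -/
theorem conj_cases (h : Rep P ψ) {y : S} (hyN : y ∈ Subgroup.normalizer (P : Set S))
    (A : Subgroup S) (hAP : A ≤ P) (hnorm : ∀ g ∈ P, ∀ a ∈ A, g * a * g⁻¹ ∈ A)
    (hexp : ∀ a ∈ A, a * a = 1) (hcard : Nat.card A = 16) :
    (∀ a ∈ A, y * a * y⁻¹ ∈ PA h) ∨ (∀ a ∈ A, y * a * y⁻¹ ∈ PB h) := by
  let V : Subgroup S := A.map (MulAut.conj y).toMonoidHom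
  have hV : ∀ g, g ∈ V ↔ ∃ a ∈ A, y * a * y⁻¹ = g := by
    intro g
    simp [V, Subgroup.mem_map, MulAut.conj_apply]
  have hyinv : y⁻¹ ∈ Subgroup.normalizer (P : Set S) := Subgroup.inv_mem _ hyN
  have hVP : V ≤ P := by
    intro g hg
    obtain ⟨a, ha, rfl⟩ := (hV g).mp hg
    exact conj_mem_of_normalizer hyN (hAP ha)
  have hVn : ∀ g ∈ P, ∀ v ∈ V, g * v * g⁻¹ ∈ V := by
    intro g hg v hv
    obtain ⟨a, ha, rfl⟩ := (hV v).mp hv
    refine (hV _).mpr ⟨_, hnorm _ (conj_mem_of_normalizer hyinv hg) a ha, ?_⟩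
    group
  have hVe : ∀ v ∈ V, v * v = 1 := by
    intro v hv
    obtain ⟨a, ha, rfl⟩ := (hV v).mp hv
    have h1 := hexp a ha
    calc y * a * y⁻¹ * (y * a * y⁻¹) = y * (a * a) * y⁻¹ := by group
      _ = 1 := by rw [h1]; group
  have hVc : Nat.card V = 16 := by
    rw [← hcard]
    exact Subgroup.card_map_of_injective (MulAut.conj y).injective
  rcases e16_cases h V hVP hVn hVe hVc with h1 | h1
  · left
    intro a ha
    rw [← h1]
    exact (hV _).mpr ⟨a, ha, rfl⟩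
  · right
    intro a ha
    rw [← h1]
    exact (hV _).mpr ⟨a, ha, rfl⟩

/-- An element outside `P` normalising `P` interchanges the two subgroups. -/
theorem swap_all (h2 : IsPGroup 2 S) (hr : Cfsg.SectionalPRankLE 2 4 S) (h : Rep P ψ) {y : S}
    (hyN : y ∈ Subgroup.normalizer (P : Set S)) (hyP : y ∉ P) :
    (∀ a ∈ PA h, y * a * y⁻¹ ∈ PB h) ∧ (∀ b ∈ PB h, y * b * y⁻¹ ∈ PA h) := by
  obtain ⟨h3, h4⟩ := not_norm h2 hr h hyN hyP
  constructor
  · rcases conj_cases h hyN (PA h) (subM_le h _) (fun g hg a ha => PA_norm h hg ha)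
      (fun a ha => PA_exp h ha) (PA_card h) with h1 | h1
    · exact absurd h1 h3
    · exact h1
  · rcases conj_cases h hyN (PB h) (subM_le h _) (fun g hg a ha => PB_norm h hg ha)
      (fun a ha => PB_exp h ha) (PB_card h) with h1 | h1
    · exact h1
    · exact absurd h1 h4

/-- Two elements outside `P` normalising `P` lie in the same coset of `P`. -/
theorem coset_mem (h2 : IsPGroup 2 S) (hr : Cfsg.SectionalPRankLE 2 4 S) (h : Rep P ψ) {x y : S}
    (hxN : x ∈ Subgroup.normalizer (P : Set S)) (hxP : x ∉ P)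
    (hyN : y ∈ Subgroup.normalizer (P : Set S)) (hyP : y ∉ P) : y * x⁻¹ ∈ P := by
  by_contra hne
  have hN := Subgroup.mul_mem _ hyN (Subgroup.inv_mem _ hxN)
  apply (not_norm h2 hr h hN hne).2
  intro b hb
  have hxinvP : x⁻¹ ∉ P := fun h1 => hxP (by simpa using P.inv_mem h1)
  have h3 := (swap_all h2 hr h (Subgroup.inv_mem _ hxN) hxinvP).2 b hb
  have h4 := (swap_all h2 hr h hyN hyP).1 _ h3
  have h5 : y * (x⁻¹ * b * x⁻¹⁻¹) * y⁻¹ = y * x⁻¹ * b * (y * x⁻¹)⁻¹ := by group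
  rwa [h5] at h4

/-- The square of an element outside `P` normalising `P` is in `P`. -/
theorem sq_mem (h2 : IsPGroup 2 S) (hr : Cfsg.SectionalPRankLE 2 4 S) (h : Rep P ψ) {y : S}
    (hyN : y ∈ Subgroup.normalizer (P : Set S)) (hyP : y ∉ P) : y * y ∈ P := by
  by_contra hne
  have hN := Subgroup.mul_mem _ hyN hyN
  apply (not_norm h2 hr h hN hne).1
  intro a ha
  have h3 := (swap_all h2 hr h hyN hyP).1 a ha
  have h4 := (swap_all h2 hr h hyN hyP).2 _ h3
  have h5 : y * (y * a * y⁻¹) * y⁻¹ = y * y * a * (y * y)⁻¹ := by group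
  rwa [h5] at h4

theorem center_le (h2 : IsPGroup 2 S) (hr : Cfsg.SectionalPRankLE 2 4 S) (h : Rep P ψ) {ξ : S}
    (hξ : ξ ∈ Subgroup.center S) : ξ ∈ P := by
  by_contra hne
  have hcomm : ∀ g : S, ξ * g * ξ⁻¹ = g := by
    intro g
    have h1 := Subgroup.mem_center_iff.mp hξ g
    rw [← h1]
    group
  have hN : ξ ∈ Subgroup.normalizer (P : Set S) := by
    rw [Subgroup.mem_normalizer_iff]
    intro g
    rw [hcomm]
  apply (not_norm h2 hr h hN hne).1
  intro a ha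
  rwa [hcomm]

theorem center_spec_table {i : ℕ} (hi : i < 128)
    (hc : ∀ j, j < 128 → mulN i j = mulN j i) : i = 0 ∨ i = 127 := by
  have h1 := (allB_iff _ _).mp chkCenter_true i hi
  simp only [Bool.or_eq_true, beq_iff] at h1
  rcases h1 with h1 | h1 | h1
  · exact Or.inl h1
  · exact Or.inr h1
  · exfalso
    have h3 : allB 128 (fun j => Nat.beq (mulN i j) (mulN j i)) = true :=
      (allB_iff _ _).mpr (fun j hj => beq_iff.mpr (hc j hj))
    simp [h3] at h1

theorem center_cases (h : Rep P ψ) {g : S} (hg : g ∈ P) (hc : ∀ a ∈ P, g * a = a * g) :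
    g = 1 ∨ g = ψ 127 := by
  obtain ⟨i, hi, rfl⟩ := (h.mem _).mp hg
  have h1 : i = 0 ∨ i = 127 := by
    apply center_spec_table hi
    intro j hj
    apply h.inj _ _ (mulN_lt _ _) (mulN_lt _ _)
    rw [h.mul _ _ hi hj, h.mul _ _ hj hi]
    exact hc _ (h.mem_of_lt hj)
  rcases h1 with rfl | rfl
  · exact Or.inl h.one
  · exact Or.inr rfl

theorem center_iff (h2 : IsPGroup 2 S) (hr : Cfsg.SectionalPRankLE 2 4 S) (h : Rep P ψ)
    (hP : P ≠ ⊤) (g : S) : g ∈ Subgroup.center S ↔ g = 1 ∨ g = ψ 127 := by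
  haveI : Nontrivial S := by
    by_contra hnt
    rw [not_nontrivial_iff_subsingleton] at hnt
    exact hP (Subsingleton.elim _ _)
  haveI : Nontrivial (Subgroup.center S) := h2.center_nontrivial
  have hcases : ∀ ξ ∈ Subgroup.center S, ξ = 1 ∨ ξ = ψ 127 := by
    intro ξ hξ
    exact center_cases h (center_le h2 hr h hξ) (fun a _ => Subgroup.mem_center_iff.mp hξ a |>.symm)
  constructor
  · exact hcases g
  · rintro (rfl | rfl)
    · exact Subgroup.one_mem _
    · obtain ⟨⟨ξ, hξ⟩, hne⟩ := exists_ne (1 : Subgroup.center S)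
      have hne' : ξ ≠ 1 := fun h1 => hne (Subtype.ext h1)
      rcases hcases ξ hξ with h1 | h1
      · exact absurd h1 hne'
      · rwa [← h1]

end

end Cfsg.Agent.Lib.P128
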