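/-
The main theorem on 2-groups of sectional rank at most 4 containing the wreath product.
-/
import Cfsg.Agent.Lib.P128.Act
import Cfsg.Prelude.Def_Transfer

set_option autoImplicit false

namespace Cfsg.Agent.Lib.P128

open Equiv

universe u

variable {S : Type u} [Group S]

section theta

variable {P : Subgroup S} {ψ : ℕ → S}

open Classical in
/-- The index of an element. -/
noncomputable def idx (ψ : ℕ → S) (g : S) : ℕ :=
  if hg : ∃ i, i < 128 ∧ ψ i = g then hg.choose else 0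

theorem idx_spec (h : Rep P ψ) {i : ℕ} (hi : i < 128) : idx ψ (ψ i) = i := by
  have hex : ∃ j, j < 128 ∧ ψ j = ψ i := ⟨i, hi, rfl⟩
  unfold idx
  rw [dif_pos hex]
  exact h.inj _ _ hex.choose_spec.1 hi hex.choose_spec.2

open Classical in
/-- The map on the normaliser, on indices. -/
noncomputable def th₀ (ψ : ℕ → S) (P : Subgroup S) (x : S) (z : ℕ) (g : S) : ℕ :=
  if g ∈ P then thN (idx ψ g) else mulN (thN (idx ψ (g * x⁻¹))) z

theorem th₀_ψ (h : Rep P ψ) (x : S) (z : ℕ) {i : ℕ} (hi : i < 128) :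
    th₀ ψ P x z (ψ i) = thN i := by
  unfold th₀
  rw [if_pos (h.mem_of_lt hi), idx_spec h hi]

theorem th₀_ψx (h : Rep P ψ) {x : S} (hxP : x ∉ P) (z : ℕ) {i : ℕ} (hi : i < 128) :
    th₀ ψ P x z (ψ i * x) = mulN (thN i) z := by
  unfold th₀
  have h1 : ψ i * x ∉ P := by
    intro h2
    apply hxP
    have h3 := P.mul_mem (P.inv_mem (h.mem_of_lt hi)) h2
    simpa using h3
  rw [if_neg h1, mul_inv_cancel_right, idx_spec h hi]

theorem thN_mul {i j : ℕ} (hi : i < 128) (hj : j < 128) : thN (mulN i j) = mulN (thN i) (thN j) :=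
  beq_iff.mp ((allB_iff _ _).mp ((allB_iff _ _).mp chkThetaMul_true i hi) j hj)

theorem Et_mul {i j : ℕ} (hi : i < 128) (hj : j < 128) :
    E (thN (mulN i j)) = E (thN i) * E (thN j) := by
  rw [thN_mul hi hj, E_mul (thN_lt _) (thN_lt _)]

theorem ker_facts : thN 127 = 0 ∧ (∀ i, i < 128 → thN i = 0 → i = 0 ∨ i = 127) ∧
    (∀ k, k < 128 → tb MIM k = true → ∃ i, i < 128 ∧ thN i = k) ∧
    (∀ k z, k < 128 → z < 128 → tb MIM k = false → tb MIM z = false → tb MIM (mulN k (invN z)) = true) ∧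
    (∀ i z, i < 128 → z < 128 → tb MIM z = false → mulN (thN i) z ≠ 0) := by
  have h := chkThetaKer_true
  unfold chkThetaKer at h
  simp only [Bool.and_eq_true] at h
  obtain ⟨h1, h2, h3, h4, h5⟩ := h
  refine ⟨beq_iff.mp h1, ?_, ?_, ?_, ?_⟩
  · intro i hi h0
    have h6 := (allB_iff _ _).mp h2 i hi
    simp only [Bool.or_eq_true, beq_iff] at h6
    rcases h6 with h6 | h6 | h6
    · exact Or.inl h6
    · exact Or.inr h6
    · exfalso
      rw [h0] at h6
      simp at h6
  · intro k hk hk2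
    have h6 := (allB_iff _ _).mp h3 k hk
    simp only [hk2, Bool.not_true, Bool.false_or] at h6
    obtain ⟨i, hi, hi2⟩ := (anyB_iff _ _).mp h6
    exact ⟨i, hi, beq_iff.mp hi2⟩
  · intro k z hk hz hk2 hz2
    have h6 := (allB_iff _ _).mp h4 k hk
    simp only [hk2, Bool.false_or] at h6
    have h7 := (allB_iff _ _).mp h6 z hz
    simpa only [hz2, Bool.false_or] using h7
  · intro i z hi hz hz2 h0
    have h6 := (allB_iff _ _).mp ((allB_iff _ _).mp h5 i hi) z hz
    simp only [hz2, Bool.false_or] at h6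
    rw [h0] at h6
    simp at h6

/-- The map from the normaliser, given the data from the main check. -/
theorem exists_theta (h : Rep P ψ) {x : S} (hxP : x ∉ P)
    (hN : ∀ g ∈ Subgroup.normalizer (P : Set S), g ∈ P ∨ g * x⁻¹ ∈ P)
    {f c z : ℕ} (hact : ∀ i, i < 128 → ψ (get7 f i) = x * ψ i * x⁻¹) (hc : c < 128)
    (hc2 : ψ c = x * x) (hz : z < 128) (hv : val3 f c z = true)
    (hcen : ∀ g, g ∈ Subgroup.center S ↔ g = 1 ∨ g = ψ 127)
    (hPN : P ≤ Subgroup.normalizer (P : Set S)) (hxN : x ∈ Subgroup.normalizer (P : Set S)) :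
    ∃ Θ : ↥(Subgroup.normalizer (P : Set S)) →* ↥T₀, Function.Surjective Θ ∧
      Θ.ker = (Subgroup.center S).subgroupOf (Subgroup.normalizer (P : Set S)) := by
  unfold val3 at hv
  simp only [Bool.and_eq_true, Bool.not_eq_eq_eq_not, Bool.not_true] at hv
  obtain ⟨hz1, hz2, hz3⟩ := hv
  have hb : E z * E z = E (thN c) := by
    rw [← E_mul hz hz, beq_iff.mp hz2]
  have ha : ∀ j, j < 128 → E (thN (get7 f j)) * E z = E z * E (thN j) := by
    intro j hj
    rw [← E_mul (thN_lt _) hz, ← E_mul hz (thN_lt _), beq_iff.mp ((allB_iff _ _).mp hz3 j hj)]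
  have hxcomm : ∀ j, j < 128 → x * ψ j = ψ (get7 f j) * x := by
    intro j hj
    rw [hact j hj]
    group
  have hform : ∀ g ∈ Subgroup.normalizer (P : Set S), ∃ i, i < 128 ∧ (g = ψ i ∨ g = ψ i * x) := by
    intro g hg
    rcases hN g hg with h1 | h1
    · obtain ⟨i, hi, rfl⟩ := (h.mem _).mp h1
      exact ⟨i, hi, Or.inl rfl⟩
    · obtain ⟨i, hi, hi2⟩ := (h.mem _).mp h1
      exact ⟨i, hi, Or.inr (by rw [hi2]; group)⟩
  have hEz : ∀ i, E (mulN (thN i) z) = E (thN i) * E z := fun i => E_mul (thN_lt _) hz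
  have hmul : ∀ g ∈ Subgroup.normalizer (P : Set S), ∀ g' ∈ Subgroup.normalizer (P : Set S),
      E (th₀ ψ P x z (g * g')) = E (th₀ ψ P x z g) * E (th₀ ψ P x z g') := by
    intro g hg g' hg'
    obtain ⟨i, hi, hi2⟩ := hform g hg
    obtain ⟨j, hj, hj2⟩ := hform g' hg'
    have hfj := get7_lt f j
    rcases hi2 with rfl | rfl <;> rcases hj2 with rfl | rfl
    · rw [← h.mul i j hi hj, th₀_ψ h x z (mulN_lt _ _), th₀_ψ h x z hi, th₀_ψ h x z hj, Et_mul hi hj]
    · have h1 : ψ i * (ψ j * x) = ψ (mulN i j) * x := by rw [h.mul i j hi hj, mul_assoc]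
      rw [h1, th₀_ψx h hxP z (mulN_lt _ _), th₀_ψ h x z hi, th₀_ψx h hxP z hj, hEz, hEz, Et_mul hi hj,
        mul_assoc]
    · have h1 : ψ i * x * ψ j = ψ (mulN i (get7 f j)) * x := by
        rw [h.mul i _ hi hfj, mul_assoc, hxcomm j hj, mul_assoc]
      rw [h1, th₀_ψx h hxP z (mulN_lt _ _), th₀_ψx h hxP z hi, th₀_ψ h x z hj, hEz, hEz, Et_mul hi hfj,
        mul_assoc, ha j hj, mul_assoc]
    · have h1 : ψ i * x * (ψ j * x) = ψ (mulN (mulN i (get7 f j)) c) := by
        rw [h.mul _ _ (mulN_lt _ _) hc, h.mul i _ hi hfj, hc2]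
        calc ψ i * x * (ψ j * x) = ψ i * (x * ψ j) * x := by group
          _ = ψ i * (ψ (get7 f j) * x) * x := by rw [hxcomm j hj]
          _ = ψ i * ψ (get7 f j) * (x * x) := by group
      rw [h1, th₀_ψ h x z (mulN_lt _ _), th₀_ψx h hxP z hi, th₀_ψx h hxP z hj, hEz, hEz,
        Et_mul (mulN_lt _ _) hc, Et_mul hi hfj, ← hb]
      calc E (thN i) * E (thN (get7 f j)) * (E z * E z)
          = E (thN i) * (E (thN (get7 f j)) * E z) * E z := by group
        _ = E (thN i) * (E z * E (thN j)) * E z := by rw [ha j hj]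
        _ = E (thN i) * E z * (E (thN j) * E z) := by group
  let Θ : ↥(Subgroup.normalizer (P : Set S)) →* ↥T₀ := MonoidHom.mk'
    (fun g => ⟨E (th₀ ψ P x z (g : S)), E_mem _⟩)
    (fun g g' => Subtype.ext (hmul g g.2 g' g'.2))
  have hΘ : ∀ g : ↥(Subgroup.normalizer (P : Set S)), ((Θ g : ↥T₀) : Perm (Fin 8)) = E (th₀ ψ P x z (g : S)) :=
    fun _ => rfl
  obtain ⟨k1, k2, k3, k4, k5⟩ := ker_facts
  refine ⟨Θ, ?_, ?_⟩
  · rintro ⟨σ, hσ⟩
    obtain ⟨k, hk, rfl⟩ := mem_T₀ hσ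
    by_cases hk2 : tb MIM k = true
    · obtain ⟨i, hi, rfl⟩ := k3 k hk hk2
      refine ⟨⟨ψ i, hPN (h.mem_of_lt hi)⟩, Subtype.ext ?_⟩
      rw [hΘ, th₀_ψ h x z hi]
    · have hk2' : tb MIM k = false := by simpa using hk2
      have h1 := k4 k z hk hz hk2' hz1
      obtain ⟨i, hi, hi2⟩ := k3 _ (mulN_lt _ _) h1
      refine ⟨⟨ψ i * x, Subgroup.mul_mem _ (hPN (h.mem_of_lt hi)) hxN⟩, Subtype.ext ?_⟩
      rw [hΘ, th₀_ψx h hxP z hi, hEz, hi2, E_mul hk (invN_lt _), E_inv hz]
      group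
  · ext ⟨g, hg⟩
    rw [MonoidHom.mem_ker, Subgroup.mem_subgroupOf, hcen]
    obtain ⟨i, hi, hi2⟩ := hform g hg
    constructor
    · intro h1
      have h2 : E (th₀ ψ P x z g) = 1 := congrArg Subtype.val h1
      rcases hi2 with rfl | rfl
      · rw [th₀_ψ h x z hi, ← E_zero] at h2
        have h3 := E_inj (thN_lt _) (by norm_num) h2
        rcases k2 i hi h3 with rfl | rfl
        · exact Or.inl h.one
        · exact Or.inr rfl
      · rw [th₀_ψx h hxP z hi, ← E_zero] at h2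
        exact absurd (E_inj (mulN_lt _ _) (by norm_num) h2) (k5 i z hi hz hz1)
    · intro h1
      apply Subtype.ext
      change E (th₀ ψ P x z g) = 1
      rcases h1 with rfl | rfl
      · have h3 : (1 : S) = ψ 0 := h.one.symm
        rw [h3, th₀_ψ h x z (by norm_num)]
        have h4 : thN 0 = 0 := by decide +kernel
        rw [h4, E_zero]
      · rw [th₀_ψ h x z (by norm_num), k1, E_zero]

end theta

/-- Growing the normaliser. -/
theorem exists_normalizing [Finite S] (h2 : IsPGroup 2 S) {P M : Subgroup S} (hPM : P < M) :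
    ∃ y ∈ M, y ∉ P ∧ y ∈ Subgroup.normalizer (P : Set S) := by
  have hnil : Group.IsNilpotent M := (h2.to_subgroup M).isNilpotent
  have hlt : P.subgroupOf M < ⊤ := by
    rw [lt_top_iff_ne_top]
    intro h3
    apply hPM.2
    intro g hg
    have h4 : (⟨g, hg⟩ : M) ∈ P.subgroupOf M := by rw [h3]; trivial
    exact Subgroup.mem_subgroupOf.mp h4
  obtain ⟨⟨y, hyM⟩, hy1, hy2⟩ := SetLike.exists_of_lt (Group.normalizerCondition_of_isNilpotent _ hlt)
  refine ⟨y, hyM, fun h3 => hy2 (Subgroup.mem_subgroupOf.mpr h3), ?_⟩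
  rw [Subgroup.mem_normalizer_iff]
  intro g
  rw [Subgroup.mem_normalizer_iff] at hy1
  constructor
  · intro hg
    have h3 := (hy1 ⟨g, hPM.1 hg⟩).mp (Subgroup.mem_subgroupOf.mpr hg)
    exact Subgroup.mem_subgroupOf.mp h3
  · intro hg
    have hgM : g ∈ M := by
      have h4 := M.mul_mem (M.mul_mem (M.inv_mem hyM) (hPM.1 hg)) hyM
      have h5 : y⁻¹ * (y * g * y⁻¹) * y = g := by group
      rwa [h5] at h4
    have h3 := (hy1 ⟨g, hgM⟩).mpr (Subgroup.mem_subgroupOf.mpr hg)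
    exact Subgroup.mem_subgroupOf.mp h3

/-- The representation from an isomorphism with the standard Sylow subgroup. -/
theorem exists_rep {P : Subgroup S} (F : ↥P ≃* ↥T₀) : ∃ ψ : ℕ → S, Rep P ψ := by
  refine ⟨fun i => ((F.symm ⟨E i, E_mem i⟩ : ↥P) : S), ?_, ?_, ?_⟩
  · intro i j hi hj
    have h1 : (⟨E (mulN i j), E_mem _⟩ : ↥T₀) = ⟨E i, E_mem i⟩ * ⟨E j, E_mem j⟩ :=
      Subtype.ext (E_mul hi hj)
    change ((F.symm ⟨E (mulN i j), E_mem _⟩ : ↥P) : S) =
      ((F.symm ⟨E i, E_mem i⟩ : ↥P) : S) * ((F.symm ⟨E j, E_mem j⟩ : ↥P) : S)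
    rw [h1, map_mul]
    rfl
  · intro i j hi hj h1
    have h2 := F.symm.injective (Subtype.ext h1)
    have h3 : E i = E j := congrArg Subtype.val h2
    exact E_inj hi hj h3
  · intro g
    constructor
    · intro hg
      obtain ⟨i, hi, hi2⟩ := mem_T₀ (F ⟨g, hg⟩).2
      refine ⟨i, hi, ?_⟩
      have h3 : (⟨E i, E_mem i⟩ : ↥T₀) = F ⟨g, hg⟩ := Subtype.ext hi2
      change ((F.symm ⟨E i, E_mem i⟩ : ↥P) : S) = g
      rw [h3, MulEquiv.symm_apply_apply]
    · rintro ⟨i, -, rfl⟩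
      exact (F.symm ⟨E i, E_mem i⟩).2

/-- The main theorem. -/
theorem main [Finite S] (h2 : IsPGroup 2 S) (hr : Cfsg.SectionalPRankLE 2 4 S)
    (P : Subgroup S) (hPlt : P ≠ ⊤) (hP : ∃ T : Sylow 2 (Perm (Fin 8)),
      Nonempty (↥P ≃* ↥(T : Subgroup (Perm (Fin 8))))) :
    Subgroup.center S = (Subgroup.center ↥P).map P.subtype ∧ Nat.card ↥(Subgroup.center S) = 2 ∧
    P.relIndex (Subgroup.normalizer (P : Set S)) = 2 ∧
    (∃ (_ : ((Subgroup.center S).subgroupOf (Subgroup.normalizer (P : Set S))).Normal)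
      (T : Sylow 2 (Perm (Fin 8))),
      Nonempty (↥(Subgroup.normalizer (P : Set S)) ⧸
        (Subgroup.center S).subgroupOf (Subgroup.normalizer (P : Set S)) ≃*
        ↥(T : Subgroup (Perm (Fin 8))))) ∧
    ∀ V : Subgroup S, V ≤ P → (∀ g ∈ P, ∀ v ∈ V, g * v * g⁻¹ ∈ V) → Cfsg.IsElementaryAbelian 2 V →
      Nat.card ↥V = 16 → Subgroup.normalizer (V : Set S) = P := by
  obtain ⟨T, ⟨F₀⟩⟩ := hP
  let F : ↥P ≃* ↥T₀ := F₀.trans ((Sylow.equiv T T₀S).trans (MulEquiv.subgroupCongr T₀S_coe))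
  obtain ⟨ψ, h⟩ := exists_rep F
  have hcardP : Nat.card P = 128 := by
    rw [Nat.card_congr F.toEquiv, card_T₀]
  have hcen := center_iff h2 hr h hPlt
  have h127 : ψ 127 ≠ 1 := by
    rw [← h.one]
    intro h1
    have := h.inj _ _ (by norm_num) (by norm_num) h1
    omega
  have hPN : P ≤ Subgroup.normalizer (P : Set S) := Subgroup.le_normalizer
  -- an element of the normaliser outside `P`
  have hPtop : P < ⊤ := lt_top_iff_ne_top.mpr hPlt
  obtain ⟨x, -, hxP, hxN⟩ := exists_normalizing h2 hPtop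
  have hx2 := sq_mem h2 hr h hxN hxP
  obtain ⟨f, c, z, hc, hc2, hact, -, hz, hv⟩ :=
    main_step hr h hxP (fun g hg => conj_mem_of_normalizer hxN hg) hx2
  have hN : ∀ g ∈ Subgroup.normalizer (P : Set S), g ∈ P ∨ g * x⁻¹ ∈ P := by
    intro g hg
    by_cases hg2 : g ∈ P
    · exact Or.inl hg2
    · exact Or.inr (coset_mem h2 hr h hxN hxP hg hg2)
  obtain ⟨Θ, hΘs, hΘk⟩ := exists_theta h hxP hN hact hc hc2 hz hv hcen hPN hxN
  have hcardZ : Nat.card ↥(Subgroup.center S) = 2 := by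
    rw [Nat.card_eq_two_iff]
    refine ⟨⟨1, Subgroup.one_mem _⟩, ⟨ψ 127, (hcen _).mpr (Or.inr rfl)⟩, ?_, ?_⟩
    · intro h1
      exact h127 (congrArg Subtype.val h1).symm
    · ext ⟨g, hg⟩
      simp only [Set.mem_insert_iff, Set.mem_singleton_iff, Set.mem_univ, iff_true, Subtype.mk.injEq]
      exact (hcen g).mp hg
  refine ⟨?_, hcardZ, ?_, ?_, ?_⟩
  · -- the centres
    ext g
    constructor
    · intro hg
      have hgP := center_le h2 hr h hg
      refine Subgroup.mem_map.mpr ⟨⟨g, hgP⟩, ?_, rfl⟩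
      rw [Subgroup.mem_center_iff]
      intro b
      apply Subtype.ext
      exact Subgroup.mem_center_iff.mp hg (b : S)
    · intro hg
      obtain ⟨w, hw, rfl⟩ := Subgroup.mem_map.mp hg
      rw [hcen]
      apply center_cases h w.2
      intro a ha
      have h1 := Subgroup.mem_center_iff.mp hw ⟨a, ha⟩
      exact (congrArg Subtype.val h1).symm
  · -- the index
    have hcardN : Nat.card ↥(Subgroup.normalizer (P : Set S)) = 256 := by
      have h1 := Subgroup.card_eq_card_quotient_mul_card_subgroup Θ.ker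
      rw [Nat.card_congr (QuotientGroup.quotientKerEquivOfSurjective Θ hΘs).toEquiv, card_T₀] at h1
      have h3 : Nat.card Θ.ker = Nat.card ↥(Subgroup.center S) := by
        rw [hΘk]
        exact Nat.card_congr (Subgroup.subgroupOfEquivOfLe (fun g hg => by
          exact Subgroup.mem_normalizer_iff.mpr (fun a => by
            have hcomm : g * a * g⁻¹ = a := by
              rw [← Subgroup.mem_center_iff.mp hg a]
              group
            rw [hcomm]))).toEquiv
      rw [h3, hcardZ] at h1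
      exact h1
    have h1 := Subgroup.card_mul_index (P.subgroupOf (Subgroup.normalizer (P : Set S)))
    have h3 : Nat.card (P.subgroupOf (Subgroup.normalizer (P : Set S))) = 128 := by
      rw [← hcardP]
      exact Nat.card_congr (Subgroup.subgroupOfEquivOfLe hPN).toEquiv
    rw [h3, hcardN] at h1
    unfold Subgroup.relIndex
    omega
  · -- the quotient
    refine ⟨inferInstance, T₀S, ⟨?_⟩⟩
    exact (QuotientGroup.quotientMulEquivOfEq hΘk.symm).trans
      ((QuotientGroup.quotientKerEquivOfSurjective Θ hΘs).trans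
        (MulEquiv.subgroupCongr T₀S_coe.symm))
  · -- the normalisers
    intro V hVP hnorm hE hcardV
    have hcases := e16_cases h V hVP hnorm (fun v hv => by
      have h1 := hE.2 v hv
      rwa [pow_two] at h1) hcardV
    have hle : P ≤ Subgroup.normalizer (V : Set S) := by
      intro g hg
      rw [Subgroup.mem_normalizer_iff]
      intro v
      constructor
      · exact hnorm g hg v
      · intro h1
        have h3 := hnorm g⁻¹ (P.inv_mem hg) _ h1
        have h4 : g⁻¹ * (g * v * g⁻¹) * g⁻¹⁻¹ = v := by group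
        rwa [h4] at h3
    by_contra hne
    have hlt : P < Subgroup.normalizer (V : Set S) := lt_of_le_of_ne hle (Ne.symm hne)
    obtain ⟨y, hyV, hyP, hyN⟩ := exists_normalizing h2 hlt
    have hyV' : ∀ v ∈ V, y * v * y⁻¹ ∈ V := fun v hv => (Subgroup.mem_normalizer_iff.mp hyV v).mp hv
    rcases hcases with h1 | h1
    · rw [h1] at hyV'
      exact (not_norm h2 hr h hyN hyP).1 hyV'
    · rw [h1] at hyV'
      exact (not_norm h2 hr h hyN hyP).2 hyV'

end Cfsg.Agent.Lib.P128
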